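import Cfsg.Agent.TwoF.SpA.Gen
import Cfsg.Agent.TwoF.SpD.Tool
import Cfsg.Agent.H334.Ore.Mat
import Cfsg.Agent.H866.InvolType
import Cfsg.Agent.SporadicA.M24Trans
import Cfsg.Agent.Omega.TwoF.RowM12

/-!
# TwoF SP-A: computing in groups embedded in `M24` (helper86)

* `Emb G g`, `Wd` : relations between packed permutations hold in `G`;
* `pure_le`, `rank_six`, `rank_twelve`, `row_odd24` : elementary abelian subgroups.
-/

set_option autoImplicit false

namespace Cfsg.Agent.TwoF.SpA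

open Cfsg Module Gen Subgroup
open SporadicA.GolayBase SporadicA.GolayPerm SporadicStructure.M24El H729.Trans H729.MData H729.Count
open J4.M24InvolData (P1 P2)

/-- expressions in packed permutations -/
inductive Wd
  | c (n : ℕ)
  | mul (a b : Wd)
  | pw (a : Wd) (n : ℕ)

/-- the packed value -/
def Wd.val : Wd → ℕ
  | .c n => n
  | .mul a b => pcomp a.val b.val
  | .pw a n => ppow a.val n

/-- all the letters are admissible -/
def Wd.chk (g : ℕ → Bool) : Wd → Bool
  | .c n => ok n && g n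
  | .mul a b => a.chk g && b.chk g
  | .pw a _ => a.chk g

/-- the value in a group -/
def Wd.ev {G : Type*} [Group G] (l : ℕ → G) : Wd → G
  | .c n => l n
  | .mul a b => a.ev l * b.ev l
  | .pw a n => a.ev l ^ n

theorem wd_realised : True := by
  have := @Wd.val.eq_def
  have := @Wd.chk.eq_def
  have := @Wd.ev.eq_def.{0}
  trivial

/-- strictly increasing -/
def incB : List ℕ → Bool
  | a :: b :: l => Nat.blt a b && incB (b :: l)
  | _ => true

theorem incB_realised : True := by have := @incB.eq_def; trivial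

theorem nodup_of_incB : ∀ {l : List ℕ}, incB l = true → l.Pairwise (· < ·)
  | [], _ => List.Pairwise.nil
  | [_], _ => List.pairwise_singleton _ _
  | a :: b :: l, h => by
    rw [incB, Bool.and_eq_true, Nat.blt_eq] at h
    have h1 := nodup_of_incB h.2
    refine List.pairwise_cons.2 ⟨fun x hx => ?_, h1⟩
    rcases List.mem_cons.1 hx with rfl | hx
    · exact h.1
    · exact h.1.trans ((List.pairwise_cons.1 h1).1 x hx)

theorem card_le_of_list {G : Type*} [Group G] {H : Subgroup G} (l : ℕ → G) (L : List ℕ)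
    (h : ∀ x ∈ H, ∃ c ∈ L, x = l c) : Nat.card H ≤ L.length := by
  classical
  have h1 : (H : Set G) ⊆ ((L.map l).toFinset : Set G) := fun x hx => by
    obtain ⟨c, h2, rfl⟩ := h x hx
    exact List.mem_toFinset.2 (List.mem_map_of_mem h2)
  have h2 := Set.ncard_le_ncard h1
  rw [Set.ncard_coe_finset] at h2
  exact h2.trans ((List.toFinset_card_le _).trans (List.length_map _).le)

/-- an embedding in `M24`; the tables with `g c` are in the image -/
structure Emb (G : Type*) [Group G] (g : ℕ → Bool) where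
  ψ : G →* M24
  inj : Function.Injective ψ
  ex : ∀ c, ok c = true → g c = true → ∃ x, ψ x = el c

namespace Emb

variable {G : Type*} [Group G] {g : ℕ → Bool} (E : Emb G g)

open Classical in
/-- the element with the table `c` -/
noncomputable def l (c : ℕ) : G := if h : ∃ x, E.ψ x = el c then h.choose else 1

theorem ψ_l {c : ℕ} (h : ∃ x, E.ψ x = el c) : E.ψ (E.l c) = el c := by
  rw [l, dif_pos h]; exact h.choose_spec

theorem l_eq {c : ℕ} {x : G} (h : E.ψ x = el c) : x = E.l c := E.inj (h.trans (E.ψ_l ⟨x, h⟩).symm)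

theorem l_idP : E.l idP = 1 := (E.l_eq (by rw [map_one, el_idP])).symm

theorem spec : ∀ w : Wd, w.chk g = true → ok w.val = true ∧ E.ψ (w.ev E.l) = el w.val
  | .c n, h => by
    rw [Wd.chk, Bool.and_eq_true] at h
    exact ⟨h.1, E.ψ_l (E.ex n h.1 h.2)⟩
  | .mul a b, h => by
    rw [Wd.chk, Bool.and_eq_true] at h
    obtain ⟨h1, h2⟩ := spec a h.1
    obtain ⟨h3, h4⟩ := spec b h.2
    exact ⟨ok_pcomp h1 h3, by rw [Wd.ev, Wd.val, map_mul, h2, h4, el_pcomp h1 h3]⟩
  | .pw a n, h => by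
    obtain ⟨h1, h2⟩ := spec a h
    exact ⟨ok_ppow h1 n, by rw [Wd.ev, Wd.val, map_pow, h2, el_ppow h1]⟩

theorem eq (u w : Wd) (h : (u.chk g && (w.chk g && Nat.beq u.val w.val)) = true) : u.ev E.l = w.ev E.l := by
  rw [Bool.and_eq_true, Bool.and_eq_true, Nat.beq_eq] at h
  exact E.inj (by rw [(E.spec u h.1).2, (E.spec w h.2.1).2, h.2.2])

theorem one (u : Wd) (h : (u.chk g && Nat.beq u.val idP) = true) : u.ev E.l = 1 := by
  rw [Bool.and_eq_true, Nat.beq_eq] at h
  exact E.inj (by rw [(E.spec u h.1).2, h.2, el_idP, map_one])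

theorem can {u w : Wd} (hu : u.chk g = true) (hw : w.chk g = true) (h : u.ev E.l = w.ev E.l) :
    pcomp u.val idP = pcomp w.val idP := by
  obtain ⟨h1, h2⟩ := E.spec u hu
  obtain ⟨h3, h4⟩ := E.spec w hw
  refine pcomp_idP_congr fun i hi => ?_
  rw [← H334.Ore.Mat.im_el h1 hi, ← H334.Ore.Mat.im_el h3 hi, ← h2, ← h4, h]

theorem ne (u w : Wd) (h : (u.chk g && (w.chk g && !Nat.beq (pcomp u.val idP) (pcomp w.val idP))) = true) :
    u.ev E.l ≠ w.ev E.l := fun e => by
  rw [Bool.and_eq_true, Bool.and_eq_true] at h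
  rw [E.can h.1 h.2.1 e, Nat.beq_refl] at h
  exact Bool.noConfusion h.2.2

theorem ne_one (u : Wd) (h : (u.chk g && !Nat.beq (pcomp u.val idP) idP) = true) : u.ev E.l ≠ 1 := fun e => by
  rw [Bool.and_eq_true] at h
  obtain ⟨h1, h2⟩ := E.spec u h.1
  have h3 : pcomp u.val idP = pcomp idP idP := pcomp_idP_congr fun i hi => by
    rw [← H334.Ore.Mat.im_el h1 hi, ← H334.Ore.Mat.im_el ok_idP hi, ← h2, e, map_one, el_idP]
  rw [h3] at h
  exact absurd h.2 (by decide +kernel)

theorem conj (a x y : Wd) (h : ((a.mul x).chk g && ((y.mul a).chk g && Nat.beq (a.mul x).val (y.mul a).val)) = true) :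
    a.ev E.l * x.ev E.l * (a.ev E.l)⁻¹ = y.ev E.l := mul_inv_eq_of_eq_mul (E.eq _ _ h)

theorem inv (t y : Wd)
    (h : ((y.mul (t.mul y)).chk g && (t.chk g && Nat.beq (y.mul (t.mul y)).val t.val)) = true) :
    t.ev E.l * y.ev E.l * (t.ev E.l)⁻¹ = (y.ev E.l)⁻¹ :=
  mul_inv_eq_of_eq_mul (eq_inv_mul_of_mul_eq (E.eq _ _ h))

theorem pow (a n : ℕ) (h : ((Wd.pw (.c a) n).chk g && Nat.beq (Wd.pw (.c a) n).val idP) = true) : E.l a ^ n = 1 :=
  E.one (.pw (.c a) n) h

theorem prod_mem {gl : List ℕ} (hg : (gl.all fun c => ok c && g c) = true) {H : Subgroup G}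
    (hH : ∀ c ∈ gl, E.l c ∈ H) : ∀ w : List ℕ, ∃ x ∈ H, E.ψ x = el (prodW gl w)
  | [] => ⟨1, one_mem _, by rw [map_one, prodW, el_idP]⟩
  | i :: w => by
    have h0 : ∀ P ∈ gl, ok P = true := fun P hP => (Bool.and_eq_true_iff.1 (List.all_eq_true.1 hg P hP)).1
    obtain ⟨x, h1, h2⟩ := prod_mem hg hH w
    rw [prodW, el_pcomp (ok_getD h0 i) (ok_prodW h0 w), ← h2]
    rcases Nat.lt_or_ge i gl.length with h | h
    · rw [List.getD_eq_getElem _ _ h]
      exact ⟨_, mul_mem (hH _ (List.getElem_mem h)) h1, by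
        rw [map_mul]
        exact congrArg (· * _) (E.spec (.c _) (List.all_eq_true.1 hg _ (List.getElem_mem h))).2⟩
    · rw [List.getD_eq_default _ _ h, el_idP, one_mul]
      exact ⟨x, h1, rfl⟩

/-- membership by a word in elements of the subgroup -/
theorem mem (gl : List ℕ) {H : Subgroup G} (hH : ∀ c ∈ gl, E.l c ∈ H) (w : List ℕ) (u : Wd)
    (h : ((gl.all fun c => ok c && g c) && (u.chk g && Nat.beq (prodW gl w) u.val)) = true) : u.ev E.l ∈ H := by
  rw [Bool.and_eq_true, Bool.and_eq_true, Nat.beq_eq] at h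
  obtain ⟨x, h1, h2⟩ := E.prod_mem h.1 hH w
  rwa [E.inj (h2.trans (h.2.2 ▸ (E.spec u h.2.1).2.symm))] at h1

/-- generation : words for two known generators -/
theorem gen {X Y : ℕ} (h0 : closure {E.l X, E.l Y} = ⊤) (gl : List ℕ) {H : Subgroup G} (hH : ∀ c ∈ gl, E.l c ∈ H)
    (u w : List ℕ) (h : ((gl.all fun c => ok c && g c) && (((Wd.c X).chk g && Nat.beq (prodW gl u) X) &&
      ((Wd.c Y).chk g && Nat.beq (prodW gl w) Y))) = true) : H = ⊤ := by
  rw [Bool.and_eq_true, Bool.and_eq_true] at h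
  refine top_le_iff.1 (h0 ▸ (closure_le _).2 ?_)
  rintro _ (rfl | rfl)
  · exact E.mem gl hH u (.c X) (Bool.and_eq_true_iff.2 ⟨h.1, h.2.1⟩)
  · exact E.mem gl hH w (.c Y) (Bool.and_eq_true_iff.2 ⟨h.1, h.2.2⟩)

theorem gen₂ {X Y : ℕ} (h0 : closure {E.l X, E.l Y} = ⊤) (a b : ℕ) (u w : List ℕ)
    (h : (([a, b].all fun c => ok c && g c) && (((Wd.c X).chk g && Nat.beq (prodW [a, b] u) X) &&
      ((Wd.c Y).chk g && Nat.beq (prodW [a, b] w) Y))) = true) : closure {E.l a, E.l b} = ⊤ :=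
  E.gen h0 [a, b] (fun c hc => Subgroup.subset_closure (by
    rcases List.mem_pair.1 hc with rfl | rfl <;> simp)) u w h

/-- a list of different elements -/
def lst (g : ℕ → Bool) (L : List ℕ) : Bool := incB L && L.all fun c => (ok c && g c) && Nat.beq (pcomp c idP) c

theorem lst_chk {L : List ℕ} (h : lst g L = true) {c : ℕ} (hc : c ∈ L) : (Wd.c c).chk g = true :=
  (Bool.and_eq_true_iff.1 (List.all_eq_true.1 (Bool.and_eq_true_iff.1 h).2 c hc)).1

theorem card_lst [DecidableEq G] {L : List ℕ} (h : lst g L = true) : (L.map E.l).toFinset.card = L.length := by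
  have h1 := fun c hc => Nat.eq_of_beq_eq_true
    (Bool.and_eq_true_iff.1 (List.all_eq_true.1 (Bool.and_eq_true_iff.1 h).2 c hc)).2
  rw [List.toFinset_card_of_nodup, List.length_map]
  refine List.Nodup.map_on (fun a ha b hb e => ?_) ((nodup_of_incB (Bool.and_eq_true_iff.1 h).1).imp ne_of_lt)
  exact (h1 a ha).symm.trans ((E.can (lst_chk h ha) (lst_chk h hb) e).trans (h1 b hb))

theorem length_le [Finite G] {L : List ℕ} (h : lst g L = true) {H : Subgroup G} (hH : ∀ c ∈ L, E.l c ∈ H) :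
    L.length ≤ Nat.card H := by
  classical
  rw [← E.card_lst h, ← Set.ncard_coe_finset]
  refine Set.ncard_le_ncard (t := (H : Set G)) fun x hx => ?_
  obtain ⟨c, hc, rfl⟩ := List.mem_map.1 (List.mem_toFinset.1 hx)
  exact hH c hc

theorem surj [Finite G] {L : List ℕ} (h : lst g L = true) {H : Subgroup G} (hH : ∀ c ∈ L, E.l c ∈ H)
    (hc : Nat.card H ≤ L.length) {x : G} (hx : x ∈ H) : ∃ c ∈ L, x = E.l c := by
  classical
  have h1 : ((L.map E.l).toFinset : Set G) = (H : Set G) := Set.eq_of_subset_of_ncard_le (fun y hy => by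
    obtain ⟨c, hc, rfl⟩ := List.mem_map.1 (List.mem_toFinset.1 hy)
    exact hH c hc) (by rw [Set.ncard_coe_finset, E.card_lst h]; exact hc)
  have h2 : x ∈ ((L.map E.l).toFinset : Set G) := h1 ▸ hx
  obtain ⟨c, hc, rfl⟩ := List.mem_map.1 (List.mem_toFinset.1 h2)
  exact ⟨c, hc, rfl⟩

/-- the elements of the subgroup generated by `gl` are in a list which is closed under multiplication -/
theorem enum [Finite G] {gl L : List ℕ} (h : lst g L = true)
    (hc : (L.elem idP && gl.all fun a => (ok a && g a) && L.all fun c => L.elem (pcomp a c)) = true) {x : G}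
    (hx : x ∈ closure (E.l '' {c | c ∈ gl})) : ∃ c ∈ L, x = E.l c := by
  rw [Bool.and_eq_true] at hc
  rw [← mem_toSubmonoid, closure_toSubmonoid_of_finite] at hx
  induction hx using Submonoid.closure_induction_left with
  | one => exact ⟨idP, List.mem_of_elem_eq_true hc.1, E.l_idP.symm⟩
  | mul_left a ha x _ ih =>
    obtain ⟨a, ha, rfl⟩ := ha
    obtain ⟨c, h1, rfl⟩ := ih
    obtain ⟨h2, h3⟩ := Bool.and_eq_true_iff.1 (List.all_eq_true.1 hc.2 a ha)
    exact ⟨_, List.mem_of_elem_eq_true (List.all_eq_true.1 h3 c h1),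
      E.l_eq (E.spec (.mul (.c a) (.c c)) (Bool.and_eq_true_iff.2 ⟨h2, lst_chk h h1⟩)).2⟩

/-- the subgroup generated by a list -/
def sub (gl : List ℕ) : Subgroup G := closure (E.l '' {c | c ∈ gl})

theorem mem_sub {gl : List ℕ} {c : ℕ} (h : c ∈ gl) : E.l c ∈ E.sub gl := Subgroup.subset_closure ⟨c, h, rfl⟩

theorem sub_le {gl : List ℕ} {H : Subgroup G} (h : ∀ c ∈ gl, E.l c ∈ H) : E.sub gl ≤ H :=
  (closure_le _).2 (by rintro _ ⟨c, hc, rfl⟩; exact h c hc)

theorem elemAb_sub (p : ℕ) (gl : List ℕ) (h : (gl.all fun a => ((ok a && g a) && Nat.beq (ppow a p) idP) &&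
    gl.all fun b => Nat.beq (pcomp a b) (pcomp b a)) = true) : IsElementaryAbelian p (E.sub gl) := by
  have h1 := fun a ha => Bool.and_eq_true_iff.1 (List.all_eq_true.1 h a ha)
  have h2 := fun a ha => (Bool.and_eq_true_iff.1 (h1 a ha).1).1
  refine elemAb_closure ?_ ?_
  · rintro _ ⟨a, ha, rfl⟩ _ ⟨b, hb, rfl⟩
    exact E.eq (.mul (.c a) (.c b)) (.mul (.c b) (.c a)) (Bool.and_eq_true_iff.2 ⟨Bool.and_eq_true_iff.2
      ⟨h2 a ha, h2 b hb⟩, Bool.and_eq_true_iff.2 ⟨Bool.and_eq_true_iff.2 ⟨h2 b hb, h2 a ha⟩,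
        List.all_eq_true.1 (h1 a ha).2 b hb⟩⟩)
  · rintro _ ⟨a, ha, rfl⟩
    exact E.pow a p (h1 a ha).1

/-- `y` normalises the subgroup generated by `gl`, whose elements `L` are known -/
theorem norm_sub [Finite G] {gl L : List ℕ} (hL : ∀ c ∈ L, E.l c ∈ E.sub gl) (y : ℕ)
    (h : (gl.all fun a => L.any fun c => ((Wd.c y).mul (.c a)).chk g && (((Wd.c c).mul (.c y)).chk g &&
      Nat.beq (pcomp y a) (pcomp c y))) = true) : E.l y ∈ normalizer (E.sub gl : Set G) := by
  refine mem_normalizer_closure ?_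
  rintro _ ⟨a, ha, rfl⟩
  obtain ⟨c, h1, h2⟩ := List.any_eq_true.1 (List.all_eq_true.1 h a ha)
  exact (E.conj (.c y) (.c a) (.c c) h2 : E.l y * E.l a * (E.l y)⁻¹ = E.l c) ▸ hL c h1

/-- all the products of subsets of `gl` -/
def prods : List ℕ → List ℕ
  | [] => [idP]
  | a :: l => prods l ++ (prods l).map (pcomp a)

theorem prods_realised : True := by have := @prods.eq_def; trivial

theorem prods_mem {H : Subgroup G} : ∀ {gl : List ℕ}, (gl.all fun c => ok c && g c) = true → (∀ c ∈ gl, E.l c ∈ H) →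
    ∀ c ∈ prods gl, ok c = true ∧ E.ψ (E.l c) = el c ∧ E.l c ∈ H
  | [], _, _, c, hc => by
    rw [List.mem_singleton.1 hc, E.l_idP, map_one, el_idP]
    exact ⟨ok_idP, rfl, one_mem _⟩
  | a :: l, h, hH, c, hc => by
    rw [List.all_cons, Bool.and_eq_true] at h
    have ih := prods_mem h.2 fun c hc => hH c (List.mem_cons_of_mem _ hc)
    rcases List.mem_append.1 hc with hc | hc
    · exact ih c hc
    · obtain ⟨b, hb, rfl⟩ := List.mem_map.1 hc
      obtain ⟨h1, h2, h3⟩ := ih b hb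
      obtain ⟨h4, h5⟩ := E.spec (.c a) h.1
      have h6 : E.ψ (E.l a * E.l b) = el (pcomp a b) := by
        rw [map_mul, h2, el_pcomp (P := a) h4 h1]; exact congrArg (· * _) h5
      exact ⟨ok_pcomp h4 h1, E.ψ_l ⟨_, h6⟩, E.l_eq h6 ▸ mul_mem (hH a List.mem_cons_self) h3⟩

theorem mem_of_prods {gl L : List ℕ} (h : ((gl.all fun c => ok c && g c) && L.all (prods gl).elem) = true) :
    ∀ c ∈ L, E.l c ∈ E.sub gl := fun c hc =>
  (E.prods_mem (Bool.and_eq_true_iff.1 h).1 (fun _ => E.mem_sub) c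
    (List.mem_of_elem_eq_true (List.all_eq_true.1 (Bool.and_eq_true_iff.1 h).2 c hc))).2.2

end Emb

/-! ### elementary abelian subgroups of `M24` -/

/-- the number of fixed points -/
abbrev nf (g : M24) : ℕ := H866.InvolType.fx (g : Equiv.Perm GolayPt)

theorem card24 : Nat.card M24 = 244823040 := SporadicA.M24Trans.card_M24

instance finite24 : Finite M24 := Nat.finite_of_card_ne_zero (by rw [card24]; norm_num)

theorem kinds {u : M24} (h2 : u ^ 2 = 1) (h1 : u ≠ 1) :
    (IsConj u (el P1) ∧ nf u = 8) ∨ (IsConj u (el P2) ∧ nf u = 0) := by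
  obtain ⟨h, hh, ⟨e, e0⟩ | ⟨e, e0⟩⟩ := H866.InvolType.invol_type u.2
    (orderOf_eq_prime (congrArg Subtype.val h2) fun h => h1 (Subtype.ext h))
  · exact Or.inl ⟨isConj_iff.2 ⟨⟨h, hh⟩, Subtype.ext (e.trans H866.InvolType.coe_el_P1.symm)⟩, e0⟩
  · exact Or.inr ⟨isConj_iff.2 ⟨⟨h, hh⟩, Subtype.ext (e.trans H866.InvolType.coe_el_P2.symm)⟩, e0⟩

theorem ncard_le_nf {u : M24} {T : Set GolayPt} (h : ∀ p ∈ T, u • p = p) : T.ncard ≤ nf u := by
  rw [nf, H866.InvolType.fx_eq_ncard]
  exact Set.ncard_le_ncard fun p hp => ⟨trivial, h p hp⟩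

theorem kind_of_fix {u : M24} (h2 : u ^ 2 = 1) (h1 : u ≠ 1) {p : GolayPt} (hp : u • p = p) :
    IsConj u (el P1) ∧ nf u = 8 := (kinds h2 h1).resolve_right fun h => by
  have := ncard_le_nf (T := {p}) (by rintro _ rfl; exact hp)
  rw [Set.ncard_singleton, h.2] at this
  omega

/-- Burnside's count for a group all of whose elements `≠ 1` have eight fixed points -/
theorem pure_le {B : Subgroup M24} (h : ∀ b ∈ B, b ≠ 1 → nf b = 8) : Nat.card B ≤ 16 := by
  classical
  have : Fintype B := Fintype.ofFinite _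
  have : Fintype (Quotient (MulAction.orbitRel B GolayPt)) := Fintype.ofFinite _
  have h1 := MulAction.sum_card_fixedBy_eq_card_orbits_mul_card_group B GolayPt
  have h2 : ∀ b : B, Fintype.card (MulAction.fixedBy GolayPt b) = 8 + if b = 1 then 16 else 0 := fun b => by
    have h3 : Fintype.card (MulAction.fixedBy GolayPt b) = nf b := by
      rw [Fintype.card_subtype]; rfl
    rw [h3]
    split_ifs with e
    · subst e
      exact (by decide : H866.InvolType.fx 1 = 8 + 16)
    · exact h b b.2 fun e' => e (Subtype.ext e')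
  rw [Finset.sum_congr rfl fun b _ => h2 b, Finset.sum_add_distrib, Finset.sum_ite_eq', if_pos (Finset.mem_univ _),
    Finset.sum_const, Finset.card_univ, smul_eq_mul] at h1
  rw [Nat.card_eq_fintype_card]
  exact Nat.le_of_dvd (by norm_num) ((Nat.dvd_add_right (dvd_mul_right _ _)).1 (h1 ▸ dvd_mul_left _ _))

theorem fix_le {B : Subgroup M24} (hB : IsElementaryAbelian 2 B) {p : GolayPt} (h : ∀ b ∈ B, b • p = p) :
    Nat.card B ≤ 16 := pure_le fun b hb h1 => (kind_of_fix (hB.2 b hb) h1 (h b hb)).2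

theorem exists_fix {B : Subgroup M24} {T : Set GolayPt} {q : GolayPt} (hT : ∀ b ∈ B, b • q ∈ T)
    (h : T.ncard < Nat.card B) : ∃ a ∈ B, a ≠ 1 ∧ a • q = q := by
  by_contra! e
  refine h.not_ge (Nat.card_le_card_of_injective (fun b : B => (⟨_, hT b b.2⟩ : T)) fun a b hab => ?_)
  have h1 : (a : M24) • q = (b : M24) • q := congrArg Subtype.val hab
  by_contra h2
  exact e _ (mul_mem (inv_mem b.2) a.2) (fun h3 => h2 (Subtype.ext (inv_mul_eq_one.1 h3).symm))
    (by rw [mul_smul, h1, inv_smul_smul])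

/-- **the 2-rank of `M24` is at most six** -/
theorem rank_six {A : Subgroup M24} (hA : IsElementaryAbelian 2 A) : Nat.card A < 128 := by
  by_contra! h
  let O : GolayPt → Set GolayPt := fun p => MulAction.orbit A p
  let S : GolayPt → Subgroup M24 := fun p => (MulAction.stabilizer A p).map A.subtype
  have hS : ∀ p, ∀ a ∈ S p, a ∈ A ∧ a • p = p := by
    rintro p _ ⟨a, ha, rfl⟩
    exact ⟨a.2, ha⟩
  have h1 : ∀ p, Nat.card (S p) * (O p).ncard = Nat.card A := fun p => by
    rw [card_map_of_injective A.subtype_injective, ← MulAction.index_stabilizer, card_mul_index]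
  have h2 : ∀ p, Nat.card (S p) ≤ 16 := fun p =>
    fix_le (elemAb_of_le hA fun a ha => (hS p a ha).1) fun a ha => (hS p a ha).2
  have h3 : ∀ a ∈ A, ∀ p, a • p = p → ∀ q ∈ O p, a • q = q := by
    rintro a ha p hp _ ⟨b, rfl⟩
    change a • (b : M24) • p = (b : M24) • p
    rw [← mul_smul, elemAb_comm hA ha b.2, mul_smul, hp]
  have h4 : ∀ p, 8 ≤ (O p).ncard := fun p => by
    have := h1 p; have := h2 p
    by_contra! e
    nlinarith
  have h5 : ∀ p, ∃ a ∈ A, a ≠ 1 ∧ a • p = p := fun p => exists_fix (T := Set.univ) (fun _ _ => trivial) (by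
    rw [Set.ncard_univ, Nat.card_eq_fintype_card, show Fintype.card GolayPt = 24 by decide]; omega)
  have h6 : ∀ p, (O p).ncard ≤ 8 := fun p => by
    obtain ⟨a, ha, h7, h8⟩ := h5 p
    exact (ncard_le_nf (h3 a ha p h8)).trans (kind_of_fix (hA.2 a ha) h7 h8).2.le
  obtain ⟨q, hq⟩ : ∃ q, q ∉ O none := by
    by_contra! e
    have := h6 none
    rw [Set.eq_univ_of_forall e, Set.ncard_univ, Nat.card_eq_fintype_card, show Fintype.card GolayPt = 24 by decide]
      at this
    omega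
  obtain ⟨a, ha, h7, h8⟩ := exists_fix (B := S none) (T := O q) (q := q) (fun b hb => ⟨⟨b, (hS _ b hb).1⟩, rfl⟩) (by
    have := h1 none; have := h6 none; have := h6 q
    by_contra! e
    nlinarith)
  have h9 := ncard_le_nf (u := a) (T := insert q (O none)) (by
    rintro p (rfl | hp)
    · exact h8
    · exact h3 a (hS _ a ha).1 _ (hS _ a ha).2 p hp)
  rw [Set.ncard_insert_of_notMem hq, (kind_of_fix (hA.2 a (hS _ a ha).1) h7 h8).2] at h9
  have := h4 none
  omega

/-- **the 2-rank of `M12` is at most three** -/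
theorem rank_twelve {B : Subgroup Spor.M12} (hB : IsElementaryAbelian 2 B) : Nat.card B ≤ 2 ^ 3 := by
  obtain ⟨P, hP⟩ := (elemAb_isPGroup hB).exists_le_sylow
  obtain ⟨e⟩ := MTwelveType.SylowModel.exists_equiv P
  rw [← Nat.card_congr (subgroupOfEquivOfLe hP).toEquiv, ← card_map_of_injective (f := e.symm.toMonoidHom)
    e.symm.injective]
  refine Omega.TwoF.RowM12.card_le _ ?_
  rintro _ ⟨b, hb, rfl⟩
  rw [← map_mul, ← pow_two b, show b ^ 2 = 1 from Subtype.ext (hB.2 b hb), map_one]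

/-- the identity embedding -/
noncomputable def E24 : Emb M24 fun _ => true := ⟨MonoidHom.id _, Function.injective_id, fun c _ _ => ⟨el c, rfl⟩⟩

theorem E24_l (c : ℕ) : E24.l c = el c := (E24.l_eq rfl).symm

theorem heis24 : H859.Heis.Rel 3 (E24.l 798979904154526007224172884794680407)
    (E24.l 10674545948716134417625295951104051) (E24.l 966030378851641677139589673043527712) where
  ap := E24.pow _ _ (by decide +kernel)
  bp := E24.pow _ _ (by decide +kernel)
  wp := E24.pow _ _ (by decide +kernel)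
  aw := E24.eq (.mul (.c _) (.c _)) (.mul (.c _) (.c _)) (by decide +kernel)
  bw := E24.eq (.mul (.c _) (.c _)) (.mul (.c _) (.c _)) (by decide +kernel)
  ba := E24.eq (.mul (.c _) (.c _)) (.mul (.mul (.c _) (.c _)) (.c _)) (by decide +kernel)
  w1 := E24.ne_one (.c _) (by decide +kernel)

theorem odd_le {p : ℕ} [hp : Fact p.Prime] (h2 : p ≠ 2) {B : Subgroup M24} (hB : IsElementaryAbelian p B) :
    Nat.card B ≤ p ^ small p := by
  obtain ⟨j, hj⟩ := (elemAb_isPGroup hB).exists_card_eq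
  rw [hj]
  refine Nat.pow_le_pow_right hp.out.pos ?_
  by_cases h3 : p = 3
  · subst h3
    rw [small_three]
    by_contra! e
    have := (SpD.heis_mem heis24 (by rw [card24]; norm_num) hB e.le hj).1
    omega
  · rw [small_of_ne h2 h3]
    refine SpD.le_of_card hj fun h => ?_
    rw [card24, show 244823040 = 2 ^ 10 * 3 ^ 3 * (5 * 7 * 11 * 23) by norm_num] at h
    have h4 : Squarefree (5 * 7 * 11 * 23) := by decide +kernel
    exact hp.out.one_lt.ne' (Nat.isUnit_iff.1 (h4 p (pow_two p ▸ Nat.Coprime.dvd_of_dvd_mul_left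
      (Nat.Coprime.pow_left 2 (Nat.Coprime.mul_right
        (((Nat.coprime_primes hp.out Nat.prime_two).2 h2).pow_right 10)
        (((Nat.coprime_primes hp.out Nat.prime_three).2 h3).pow_right 3))) h)))

/-- the rows of the subgroups of `M24` in odd characteristic -/
theorem row_odd24 {p : ℕ} [hp : Fact p.Prime] (h2 : p ≠ 2) {S : Type} [Group S] (ψ : S →* M24)
    (hψ : Function.Injective ψ) (ho : Nat.card (Out S) ∣ 2) : Row p S :=
  row_of_card (fun h => h2 ((Nat.prime_dvd_prime_iff_eq hp.out Nat.prime_two).1 (h.trans ho))) fun B hB =>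
    card_map_of_injective (K := B) hψ ▸ odd_le h2 (elemAb_map hB ψ)

/-- both rows follow if there is an offender in `K` and all the offenders in `K` are cubic -/
theorem row_of_key {S : Type} [Group S]
    (h : ∀ (Y : Type) [Group Y] [Finite Y] (V : Type) [AddCommGroup V] [Module (ZMod 2) V] [Finite V]
      (K : Subgroup Y) (ρ : Representation (ZMod 2) Y V) (π : K →* S) (φ : Y →* MulAut S), Sit 2 K ρ π φ →
      (∀ A, Off 2 ρ A → ¬ A ≤ K → ∃ B ≤ K, Off 2 ρ B) ∧ ∀ B ≤ K, Off 2 ρ B → Cub ρ B) : Row 2 S := by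
  refine ⟨row88_of_sit fun Y _ _ V _ _ _ K ρ π φ H A hA => ?_,
    row89_of_sit fun Y _ _ V _ _ _ K ρ π φ H A hA _ _ _ hK => (h Y V K ρ π φ H).1 A hA hK⟩
  by_cases hK : A ≤ K
  · exact ⟨A, hA, (h Y V K ρ π φ H).2 A hK hA⟩
  · obtain ⟨B, h1, h2⟩ := (h Y V K ρ π φ H).1 A hA hK
    exact ⟨B, h2, (h Y V K ρ π φ H).2 B h1 h2⟩

end Cfsg.Agent.TwoF.SpA
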